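import Mathlib

set_option autoImplicit false

namespace Cfsg.Agent.Helper1

open DihedralGroup

variable {G : Type*} [Group G]

/-- The additive hom `ZMod n →+ Additive G`, `i ↦ ρ ^ i`, for `ρ ^ n = 1`. -/
noncomputable def zmodPowHom (n : ℕ) (ρ : G) (h : ρ ^ n = 1) : ZMod n →+ Additive G :=
  ZMod.lift n ⟨zmultiplesHom (Additive G) (Additive.ofMul ρ), by
    change ((n : ℤ) • Additive.ofMul ρ) = 0
    rw [natCast_zsmul, ← ofMul_pow, h]; rfl⟩

/-- `φ i = ρ ^ i` as an element of `G`. -/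
noncomputable def zmodPow (n : ℕ) (ρ : G) (h : ρ ^ n = 1) (i : ZMod n) : G :=
  Additive.toMul (zmodPowHom n ρ h i)

theorem zmodPow_intCast (n : ℕ) (ρ : G) (h : ρ ^ n = 1) (k : ℤ) :
    zmodPow n ρ h (k : ZMod n) = ρ ^ k := by
  unfold zmodPow zmodPowHom
  rw [ZMod.lift_coe]
  rfl

theorem zmodPow_add (n : ℕ) (ρ : G) (h : ρ ^ n = 1) (i j : ZMod n) :
    zmodPow n ρ h (i + j) = zmodPow n ρ h i * zmodPow n ρ h j := by
  unfold zmodPow
  rw [map_add]; rfl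

theorem zmodPow_zero (n : ℕ) (ρ : G) (h : ρ ^ n = 1) : zmodPow n ρ h 0 = 1 := by
  unfold zmodPow
  rw [map_zero]; rfl

theorem zmodPow_neg (n : ℕ) (ρ : G) (h : ρ ^ n = 1) (i : ZMod n) :
    zmodPow n ρ h (-i) = (zmodPow n ρ h i)⁻¹ := by
  unfold zmodPow
  rw [map_neg]; rfl

theorem zmodPow_sub (n : ℕ) (ρ : G) (h : ρ ^ n = 1) (i j : ZMod n) :
    zmodPow n ρ h (j - i) = (zmodPow n ρ h i)⁻¹ * zmodPow n ρ h j := by
  rw [sub_eq_neg_add, zmodPow_add, zmodPow_neg]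

theorem zmodPow_eq_zpow (n : ℕ) (ρ : G) (h : ρ ^ n = 1) (i : ZMod n) :
    ∃ k : ℤ, (k : ZMod n) = i ∧ zmodPow n ρ h i = ρ ^ k := by
  obtain ⟨k, rfl⟩ := ZMod.intCast_surjective i
  exact ⟨k, rfl, zmodPow_intCast n ρ h k⟩

theorem zmodPow_conj (n : ℕ) (ρ d : G) (h : ρ ^ n = 1) (h2 : d * d = 1)
    (h3 : d * ρ * d = ρ⁻¹) (i : ZMod n) :
    d * zmodPow n ρ h i * d = (zmodPow n ρ h i)⁻¹ := by
  obtain ⟨k, -, hk⟩ := zmodPow_eq_zpow n ρ h i
  rw [hk]
  have hd : d⁻¹ = d := inv_eq_of_mul_eq_one_left h2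
  have h4 : d * ρ ^ k * d⁻¹ = (d * ρ * d⁻¹) ^ k := (conj_zpow).symm
  rw [hd] at h4
  rw [h4, h3, inv_zpow]

/-- The homomorphism out of the dihedral group determined by a rotation `ρ` and a reflection `d`. -/
noncomputable def dihedralLift (n : ℕ) (ρ d : G) (h1 : ρ ^ n = 1) (h2 : d * d = 1)
    (h3 : d * ρ * d = ρ⁻¹) : DihedralGroup n →* G where
  toFun
    | r i => zmodPow n ρ h1 i
    | sr i => d * zmodPow n ρ h1 i
  map_one' := by
    change zmodPow n ρ h1 0 = 1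
    exact zmodPow_zero n ρ h1
  map_mul' := by
    have key : ∀ i : ZMod n, zmodPow n ρ h1 i * d = d * (zmodPow n ρ h1 i)⁻¹ := by
      intro i
      rw [← zmodPow_conj n ρ d h1 h2 h3 i, ← mul_assoc, ← mul_assoc, h2, one_mul]
    rintro (i | i) (j | j)
    · change zmodPow n ρ h1 (i + j) = zmodPow n ρ h1 i * zmodPow n ρ h1 j
      exact zmodPow_add n ρ h1 i j
    · change d * zmodPow n ρ h1 (j - i) = zmodPow n ρ h1 i * (d * zmodPow n ρ h1 j)
      rw [zmodPow_sub, ← mul_assoc, ← mul_assoc, key i]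
    · change d * zmodPow n ρ h1 (i + j) = d * zmodPow n ρ h1 i * zmodPow n ρ h1 j
      rw [zmodPow_add, mul_assoc]
    · change zmodPow n ρ h1 (j - i) = d * zmodPow n ρ h1 i * (d * zmodPow n ρ h1 j)
      rw [zmodPow_sub, ← mul_assoc, zmodPow_conj n ρ d h1 h2 h3 i]

theorem dihedralLift_r (n : ℕ) (ρ d : G) (h1 : ρ ^ n = 1) (h2 : d * d = 1)
    (h3 : d * ρ * d = ρ⁻¹) (i : ZMod n) :
    dihedralLift n ρ d h1 h2 h3 (r i) = zmodPow n ρ h1 i := rfl

theorem dihedralLift_sr (n : ℕ) (ρ d : G) (h1 : ρ ^ n = 1) (h2 : d * d = 1)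
    (h3 : d * ρ * d = ρ⁻¹) (i : ZMod n) :
    dihedralLift n ρ d h1 h2 h3 (sr i) = d * zmodPow n ρ h1 i := rfl

theorem dihedralLift_r_one (n : ℕ) (ρ d : G) (h1 : ρ ^ n = 1) (h2 : d * d = 1)
    (h3 : d * ρ * d = ρ⁻¹) : dihedralLift n ρ d h1 h2 h3 (r 1) = ρ := by
  rw [dihedralLift_r]
  have := zmodPow_intCast n ρ h1 1
  simpa using this

theorem dihedralLift_sr_zero (n : ℕ) (ρ d : G) (h1 : ρ ^ n = 1) (h2 : d * d = 1)
    (h3 : d * ρ * d = ρ⁻¹) : dihedralLift n ρ d h1 h2 h3 (sr 0) = d := by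
  rw [dihedralLift_sr, zmodPow_zero, mul_one]

theorem dihedralLift_injective (n : ℕ) (ρ d : G) (h1 : ρ ^ n = 1) (h2 : d * d = 1)
    (h3 : d * ρ * d = ρ⁻¹) (hord : orderOf ρ = n) (hd : d ∉ Subgroup.zpowers ρ) :
    Function.Injective (dihedralLift n ρ d h1 h2 h3) := by
  rw [injective_iff_map_eq_one]
  rintro (i | i) hi
  · rw [dihedralLift_r] at hi
    obtain ⟨k, rfl, hk⟩ := zmodPow_eq_zpow n ρ h1 i
    rw [hk] at hi
    have hdvd : (orderOf ρ : ℤ) ∣ k := orderOf_dvd_iff_zpow_eq_one.mpr hi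
    rw [hord] at hdvd
    have : ((k : ℤ) : ZMod n) = 0 := (ZMod.intCast_zmod_eq_zero_iff_dvd k n).mpr hdvd
    rw [this]; rfl
  · exfalso
    rw [dihedralLift_sr] at hi
    obtain ⟨k, -, hk⟩ := zmodPow_eq_zpow n ρ h1 i
    rw [hk] at hi
    apply hd
    refine ⟨-k, ?_⟩
    have : d = (ρ ^ k)⁻¹ := eq_inv_of_mul_eq_one_left hi
    rw [this]
    exact zpow_neg ρ k

theorem dihedralLift_range (n : ℕ) (ρ d : G) (h1 : ρ ^ n = 1) (h2 : d * d = 1)
    (h3 : d * ρ * d = ρ⁻¹) :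
    (dihedralLift n ρ d h1 h2 h3).range = Subgroup.closure {ρ, d} := by
  apply le_antisymm
  · rintro _ ⟨x, rfl⟩
    have hρ : ρ ∈ Subgroup.closure ({ρ, d} : Set G) := Subgroup.subset_closure (by simp)
    have hd : d ∈ Subgroup.closure ({ρ, d} : Set G) := Subgroup.subset_closure (by simp)
    rcases x with i | i
    · rw [dihedralLift_r]
      obtain ⟨k, -, hk⟩ := zmodPow_eq_zpow n ρ h1 i
      rw [hk]; exact zpow_mem hρ k
    · rw [dihedralLift_sr]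
      obtain ⟨k, -, hk⟩ := zmodPow_eq_zpow n ρ h1 i
      rw [hk]; exact mul_mem hd (zpow_mem hρ k)
  · rw [Subgroup.closure_le]
    rintro x (rfl | rfl)
    · exact ⟨r 1, dihedralLift_r_one n _ d h1 h2 h3⟩
    · exact ⟨sr 0, dihedralLift_sr_zero n ρ _ h1 h2 h3⟩

/-- A group generated by a rotation of order `n` and a reflection inverting it, not a power of
the rotation, is dihedral. -/
theorem nonempty_dihedral_mulEquiv_closure (n : ℕ) (ρ d : G) (h2 : d * d = 1)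
    (h3 : d * ρ * d = ρ⁻¹) (hord : orderOf ρ = n) (hd : d ∉ Subgroup.zpowers ρ) :
    Nonempty (DihedralGroup n ≃* Subgroup.closure ({ρ, d} : Set G)) := by
  have h1 : ρ ^ n = 1 := by rw [← hord]; exact pow_orderOf_eq_one ρ
  have e := MonoidHom.ofInjective (dihedralLift_injective n ρ d h1 h2 h3 hord hd)
  exact ⟨e.trans (MulEquiv.subgroupCongr (dihedralLift_range n ρ d h1 h2 h3))⟩

/-- `D₃ ≃* S₃`. -/
theorem nonempty_dihedral_three_mulEquiv_perm :
    Nonempty (DihedralGroup 3 ≃* Equiv.Perm (Fin 3)) := by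
  let ρ : Equiv.Perm (Fin 3) := finRotate 3
  let d : Equiv.Perm (Fin 3) := Equiv.swap 0 1
  have h1 : ρ ^ 3 = 1 := by decide
  have h2 : d * d = 1 := by decide
  have h3 : d * ρ * d = ρ⁻¹ := by decide
  have hρ1 : ρ ≠ 1 := by decide
  have hord : orderOf ρ = 3 := by
    haveI : Fact (Nat.Prime 3) := ⟨Nat.prime_three⟩
    exact orderOf_eq_prime h1 hρ1
  have hd : d ∉ Subgroup.zpowers ρ := by
    rintro ⟨k, hk⟩
    have hc : Commute d ρ := by
      rw [← hk]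
      exact (Commute.refl ρ).zpow_left k
    have : ¬ (d * ρ = ρ * d) := by decide
    exact this hc
  have hinj := dihedralLift_injective 3 ρ d h1 h2 h3 hord hd
  have hbij : Function.Bijective (dihedralLift 3 ρ d h1 h2 h3) := by
    rw [Fintype.bijective_iff_injective_and_card]
    refine ⟨hinj, ?_⟩
    rw [DihedralGroup.card, Fintype.card_perm, Fintype.card_fin]; rfl
  exact ⟨MulEquiv.ofBijective _ hbij⟩

end Cfsg.Agent.Helper1
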