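import Mathlib

set_option autoImplicit false

namespace Cfsg.Agent.Helper1

open Matrix

variable {F : Type*} [Field F] [Fintype F]

theorem range_toGL_eq_ker_det (n : ℕ) :
    (Matrix.SpecialLinearGroup.toGL : Matrix.SpecialLinearGroup (Fin n) F →* GL (Fin n) F).range =
      (Matrix.GeneralLinearGroup.det : GL (Fin n) F →* Fˣ).ker := by
  ext g
  constructor
  · rintro ⟨s, rfl⟩
    rw [MonoidHom.mem_ker]
    ext
    simp [s.det_coe]
  · intro hg
    rw [MonoidHom.mem_ker] at hg
    have hdet : (g : Matrix (Fin n) (Fin n) F).det = 1 := by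
      have := congrArg Units.val hg
      simpa using this
    refine ⟨⟨(g : Matrix (Fin n) (Fin n) F), hdet⟩, ?_⟩
    ext i j
    rfl

theorem card_GL_eq_mul_card_SL (n : ℕ) (hn : 1 ≤ n) :
    Nat.card (GL (Fin n) F) =
      (Fintype.card F - 1) * Nat.card (Matrix.SpecialLinearGroup (Fin n) F) := by
  haveI : Nonempty (Fin n) := ⟨⟨0, hn⟩⟩
  have hsurj : Function.Surjective (Matrix.GeneralLinearGroup.det : GL (Fin n) F →* Fˣ) :=
    Matrix.GeneralLinearGroup.det_surjective
  have hidx : (Matrix.GeneralLinearGroup.det : GL (Fin n) F →* Fˣ).ker.index = Nat.card Fˣ := by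
    rw [Subgroup.index_ker, MonoidHom.range_eq_top.mpr hsurj, Subgroup.card_top]
  have hker : Nat.card (Matrix.GeneralLinearGroup.det : GL (Fin n) F →* Fˣ).ker =
      Nat.card (Matrix.SpecialLinearGroup (Fin n) F) := by
    rw [← range_toGL_eq_ker_det]
    exact (Nat.card_congr (MonoidHom.ofInjective
      (Matrix.SpecialLinearGroup.toGL_injective (n := Fin n) (R := F))).toEquiv).symm
  have h1 := Subgroup.card_mul_index (Matrix.GeneralLinearGroup.det : GL (Fin n) F →* Fˣ).ker
  rw [hidx, hker, Nat.card_units, Nat.card_eq_fintype_card (α := F)] at h1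
  rw [← h1, mul_comm]

theorem card_center_GL (n : ℕ) (hn : 1 ≤ n) :
    Nat.card (Subgroup.center (GL (Fin n) F)) = Fintype.card F - 1 := by
  haveI : Nonempty (Fin n) := ⟨⟨0, hn⟩⟩
  rw [Matrix.GeneralLinearGroup.center_eq_range_scalar]
  have hinj : Function.Injective (Matrix.GeneralLinearGroup.scalar (Fin n) : Fˣ →* GL (Fin n) F) := by
    intro a b hab
    have h1 := congrArg (fun g : GL (Fin n) F => (g : Matrix (Fin n) (Fin n) F) ⟨0, hn⟩ ⟨0, hn⟩) hab
    simp [Matrix.GeneralLinearGroup.scalar] at h1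
    exact Units.ext h1
  rw [← Nat.card_congr (MonoidHom.ofInjective hinj).toEquiv, Nat.card_units,
    Nat.card_eq_fintype_card]

theorem card_rootsOfUnity_finite_field (k : ℕ) :
    Nat.card (rootsOfUnity k F) = Nat.gcd k (Fintype.card F - 1) := by
  have h1 : rootsOfUnity k F = (powMonoidHom k : Fˣ →* Fˣ).ker := by
    ext x
    rw [mem_rootsOfUnity, MonoidHom.mem_ker, powMonoidHom_apply]
  rw [h1, IsCyclic.card_powMonoidHom_ker, Nat.card_units, Nat.card_eq_fintype_card,
    Nat.gcd_comm]

theorem card_center_SL (n : ℕ) (hn : 1 ≤ n) :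
    Nat.card (Subgroup.center (Matrix.SpecialLinearGroup (Fin n) F)) =
      Nat.gcd n (Fintype.card F - 1) := by
  rw [Nat.card_congr (Matrix.SpecialLinearGroup.center_equiv_rootsOfUnity
    (n := Fin n) (R := F)).toEquiv, Fintype.card_fin, max_eq_left hn,
    card_rootsOfUnity_finite_field]

end Cfsg.Agent.Helper1
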